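import Mathlib

/-! Square roots of odd integers and automorphisms fixing the roots of unity of odd order. -/

set_option autoImplicit false

namespace CL.OD.Sq83

theorem prime_case (σ : ℂ →+* ℂ) (q : ℕ) (hq : q.Prime) (h2 : q ≠ 2)
    (hσ : ∀ z : ℂ, z ^ q = 1 → σ z = z) :
    ∃ (t : ℂ) (e : ℤ), (e = q ∨ e = -q) ∧ e % 4 = 1 ∧ t ^ 2 = e ∧ σ t = t := by
  have := Fact.mk hq
  have hc : ringChar (ZMod q) ≠ 2 := by rwa [ZMod.ringChar_zmod_n]
  let χ : MulChar (ZMod q) ℂ := (quadraticChar (ZMod q)).ringHomComp (Int.castRingHom ℂ)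
  have hχ1 : χ ≠ 1 := (MulChar.ringHomComp_ne_one_iff (RingHom.injective_int _)).2
    (quadraticChar_ne_one hc)
  have hχ2 : χ.IsQuadratic := (quadraticChar_isQuadratic (ZMod q)).comp _
  let ψ := ZMod.stdAddChar (N := q)
  have hψ : ψ.IsPrimitive := ZMod.isPrimitive_stdAddChar q
  have h := gaussSum_sq hχ1 hχ2 hψ
  have hfix : σ (gaussSum χ ψ) = gaussSum χ ψ := by
    rw [gaussSum, map_sum]
    refine Finset.sum_congr rfl fun a _ => ?_
    rw [map_mul, hσ (ψ a) (by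
      rw [← AddChar.map_nsmul_eq_pow, nsmul_eq_mul, CharP.cast_eq_zero, zero_mul,
        AddChar.map_zero_eq_one])]
    congr 1
    simp [χ]
  have h1 : χ (-1) = ((ZMod.χ₄ (q : ZMod 4) : ℤ) : ℂ) := by
    have := quadraticChar_neg_one hc
    rw [ZMod.card] at this
    simp only [χ, MulChar.ringHomComp_apply, this]
    rfl
  rw [h1, ZMod.card] at h
  have ho : q % 2 = 1 := Nat.odd_iff.1 (hq.odd_of_ne_two h2)
  rcases Nat.odd_mod_four_iff.1 ho with h4 | h4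
  · rw [ZMod.χ₄_nat_one_mod_four h4] at h
    exact ⟨_, q, Or.inl rfl, by omega, by simpa using h, hfix⟩
  · rw [ZMod.χ₄_nat_three_mod_four h4] at h
    exact ⟨_, -q, Or.inr rfl, by omega, by simpa using h, hfix⟩

theorem nat_case (σ : ℂ →+* ℂ) (m : ℕ) : Odd m →
    (∀ q : ℕ, q.Prime → q ∣ m → ∀ z : ℂ, z ^ q = 1 → σ z = z) →
    ∃ (t : ℂ) (e : ℤ), (e = m ∨ e = -m) ∧ e % 4 = 1 ∧ t ^ 2 = e ∧ σ t = t := by
  induction m using Nat.recOnMul with
  | zero => intro h; simp at h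
  | one => exact fun _ _ => ⟨1, 1, Or.inl rfl, rfl, by simp, map_one σ⟩
  | prime q hq => exact fun h hσ => prime_case σ q hq (by rintro rfl; exact absurd h (by decide)) (hσ q hq dvd_rfl)
  | mul a b iha ihb =>
    intro h hσ
    obtain ⟨ha, hb⟩ := Nat.odd_mul.1 h
    obtain ⟨t, e, h1, h2, h3, h4⟩ := iha ha fun q hq hd => hσ q hq (hd.mul_right _)
    obtain ⟨t', e', h1', h2', h3', h4'⟩ := ihb hb fun q hq hd => hσ q hq (hd.mul_left _)
    refine ⟨t * t', e * e', ?_, by rw [Int.mul_emod, h2, h2']; rfl,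
      by rw [mul_pow, h3, h3']; simp, by rw [map_mul, h4, h4']⟩
    rcases h1 with rfl | rfl <;> rcases h1' with rfl | rfl <;> simp

theorem mod4 (σ : ℂ →+* ℂ) (hI : σ Complex.I = -Complex.I) (e : ℤ) (he : Odd e)
    (hq : ∀ q : ℕ, q.Prime → (q : ℤ) ∣ e → ∀ z : ℂ, z ^ q = 1 → σ z = z) (t : ℂ)
    (ht : t ^ 2 = e) : σ t = t ↔ e % 4 = 1 := by
  obtain ⟨s, f, h1, h2, h3, h4⟩ := nat_case σ e.natAbs (Int.natAbs_odd.2 he)
    fun q hp hd => hq q hp (Int.natCast_dvd.2 hd)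
  have h0 : e ≠ 0 := by rintro rfl; simp at he
  have ht0 : t ≠ 0 := by
    rintro rfl
    exact h0 (by exact_mod_cast (by simpa using ht.symm : (e : ℂ) = 0))
  have h5 : f = e ∨ f = -e := by omega
  rcases h5 with rfl | rfl
  · refine ⟨fun _ => h2, fun _ => ?_⟩
    rcases sq_eq_sq_iff_eq_or_eq_neg.1 (ht.trans h3.symm) with rfl | rfl
    · exact h4
    · rw [map_neg, h4]
  · have h6 : t ^ 2 = (Complex.I * s) ^ 2 := by
      rw [mul_pow, Complex.I_sq, h3, ht]; simp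
    have h7 : σ t = -t := by
      rcases sq_eq_sq_iff_eq_or_eq_neg.1 h6 with rfl | rfl <;> simp [hI, h4]
    refine ⟨fun h => absurd ?_ ht0, fun h => by omega⟩
    rw [h7] at h
    linear_combination (-1 / 2 : ℂ) * h

end CL.OD.Sq83
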