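import Cfsg.Agent.BLK.OD.M8
import Cfsg.Agent.BLK.OD.Sq83
import Cfsg.Agent.CHAR.Galois

/-! Four characters of odd degree: the count of involutions. -/

set_option autoImplicit false
open Cfsg Finset CL.Char
open scoped ComplexConjugate

namespace CL.OD.As2

theorem sum_odd {ι : Type*} (R : Finset ι) (f : ι → ℕ) (h : ∀ i ∈ R, ¬ 2 ∣ f i) :
    ∑ i ∈ R, (f i : ZMod 4) = R.card - 1 + ∏ i ∈ R, (f i : ZMod 4) ∧
      (∏ i ∈ R, (f i : ZMod 4)) ^ 2 = 1 := by
  classical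
  induction R using Finset.induction_on with
  | empty => simp
  | insert a s ha ih =>
    obtain ⟨h1, h2⟩ := ih fun i hi => h i (mem_insert_of_mem hi)
    obtain ⟨k, hk⟩ : ∃ k, f a = 2 * k + 1 := ⟨f a / 2, by have := h a (mem_insert_self _ _); omega⟩
    rw [sum_insert ha, prod_insert ha, card_insert_of_notMem ha, h1, hk]
    push_cast
    generalize (∏ i ∈ s, (f i : ZMod 4)) = x at h2
    generalize (k : ZMod 4) = y
    generalize (s.card : ZMod 4) = z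
    revert x y z
    decide

theorem sigma (n : ℕ) (hn : n ≠ 0) : ∃ (k a o : ℕ), n = 2 ^ a * o ∧ Odd o ∧ 2 ^ a ∣ k + 1 ∧
    k ≡ 1 [MOD o] ∧ k * k ≡ 1 [MOD n] := by
  obtain ⟨a, o, ho, rfl⟩ := Nat.exists_eq_two_pow_mul_odd hn
  have hc : Nat.Coprime (2 ^ a) o := (Nat.coprime_two_left.2 ho).pow_left a
  obtain ⟨k, h1, h2⟩ := Nat.chineseRemainder hc (2 ^ a - 1) 1
  have h3 : k + 1 ≡ 0 [MOD 2 ^ a] := by
    have := h1.add_right 1
    rw [Nat.sub_add_cancel Nat.one_le_two_pow] at this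
    exact this.trans (Nat.modEq_zero_iff_dvd.2 dvd_rfl)
  refine ⟨k, a, o, rfl, ho, Nat.modEq_zero_iff_dvd.1 h3, h2,
    (Nat.modEq_and_modEq_iff_modEq_mul hc).1 ⟨?_, by simpa using h2.mul h2⟩⟩
  have h4 : k * k + k ≡ 1 + k [MOD 2 ^ a] := by
    have := h3.mul_left k
    rw [mul_add, mul_one, mul_zero] at this
    exact this.trans (add_comm k 1 ▸ h3.symm)
  exact Nat.ModEq.add_right_cancel' k h4

variable {G : Type*} [Group G] [Fintype G]

open Classical in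
theorem even_moved (σ : ℂ ≃+* ℂ) (h : ∀ (χ : IrrCharacter G) g, σ (σ (χ.1 g)) = χ.1 g) :
    (Nat.card {χ : IrrCharacter G // ¬ 2 ∣ charDegree χ.1 ∧ ¬ ∀ g, σ (χ.1 g) = χ.1 g} : ZMod 2) = 0 ∧
      ∏ χ ∈ univ.filter (fun χ : IrrCharacter G => ¬ 2 ∣ charDegree χ.1 ∧ ¬ ∀ g, σ (χ.1 g) = χ.1 g),
        (charDegree χ.1 : ZMod 4) = 1 := by
  have hd : ∀ χ : IrrCharacter G, charDegree (galIrr G σ χ).1 = charDegree χ.1 := fun χ => by
    have := χ.2.isCharacter.charDegree_gal (σ : ℂ →+* ℂ)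
    rw [← this]
    exact congrArg _ (funext fun g => galIrr_apply σ χ g)
  have h2 : ∀ χ : IrrCharacter G, galIrr G σ (galIrr G σ χ) = χ := fun χ =>
    Subtype.ext (funext fun g => by rw [galIrr_apply, galIrr_apply, h])
  have h3 : ∀ χ ∈ univ.filter (fun χ : IrrCharacter G => ¬ 2 ∣ charDegree χ.1 ∧
      ¬ ∀ g, σ (χ.1 g) = χ.1 g), galIrr G σ χ ≠ χ ∧ galIrr G σ χ ∈ univ.filter
        (fun χ : IrrCharacter G => ¬ 2 ∣ charDegree χ.1 ∧ ¬ ∀ g, σ (χ.1 g) = χ.1 g) := fun χ hχ => by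
    obtain ⟨a, b⟩ := (mem_filter.1 hχ).2
    refine ⟨fun e => b fun g => by rw [← galIrr_apply, e], mem_filter.2 ⟨mem_univ _, hd χ ▸ a,
      fun e => b fun g => ?_⟩⟩
    have := e g
    rw [galIrr_apply, h] at this
    exact this.symm
  constructor
  · rw [Nat.card_eq_fintype_card, Fintype.card_subtype, card_eq_sum_ones, Nat.cast_sum]
    exact sum_involution (fun χ _ => galIrr G σ χ) (fun _ _ => by decide) (fun χ h _ => (h3 χ h).1)
      (fun χ h => (h3 χ h).2) fun χ _ => h2 χ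
  · refine prod_involution (fun χ _ => galIrr G σ χ) (fun χ hχ => ?_) (fun χ h _ => (h3 χ h).1)
      (fun χ h => (h3 χ h).2) fun χ _ => h2 χ
    rw [hd]
    simpa [sq] using (sum_odd {χ} (fun χ => charDegree χ.1)
      (by simpa using (mem_filter.1 hχ).2.1)).2

open Classical in
theorem main (h4 : Nat.card {χ : IrrCharacter G // ¬ 2 ∣ charDegree χ.1} = 4) (h8 : 8 ∣ Nat.card G)
    (d : ℂ) (hd : d ^ 2 * ∏ χ : IrrCharacter G, (charDegree χ.1 : ℂ) ^ (charDegree χ.1 ^ 2) =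
      (Nat.card G : ℂ) ^ Nat.card G ∨ d ^ 2 * ∏ χ : IrrCharacter G,
        (charDegree χ.1 : ℂ) ^ (charDegree χ.1 ^ 2) = -(Nat.card G : ℂ) ^ Nat.card G)
    (hσ : ∀ σ : ℂ ≃+* ℂ, (∀ (χ : IrrCharacter G) g, σ (σ (χ.1 g)) = χ.1 g) → σ d = (-1) ^ (Nat.card
      {χ : IrrCharacter G // ¬ 2 ∣ charDegree χ.1 ∧ ¬ ∀ g, σ (χ.1 g) = χ.1 g} / 2) * d) :
    Nat.card {s : G // s * s = 1} % 4 = 2 ∨ ∃ k : ℕ,
      (∀ g : G, (∃ j, orderOf g = 2 ^ j) → g ^ k = g⁻¹) ∧ (∀ g : G, Odd (orderOf g) → g ^ k = g) ∧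
      Nat.card {χ : IrrCharacter G // ¬ 2 ∣ charDegree χ.1 ∧ ∀ g, χ.1 (g ^ k) = χ.1 g} = 2 := by
  have n0 : Nat.card G ≠ 0 := Nat.card_pos.ne'
  have split : ∀ Q : IrrCharacter G → Prop,
      Nat.card {χ : IrrCharacter G // ¬ 2 ∣ charDegree χ.1 ∧ Q χ} +
      Nat.card {χ : IrrCharacter G // ¬ 2 ∣ charDegree χ.1 ∧ ¬ Q χ} = 4 := fun Q => by
    simp only [Nat.card_eq_fintype_card, Fintype.card_subtype] at h4 ⊢
    rw [← h4, ← filter_filter, ← filter_filter]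
    convert card_filter_add_card_filter_not Q
  obtain ⟨k, a, o, hn, ho, k1, k2, k3⟩ := sigma _ n0
  have hc : Nat.Coprime 2 o := Nat.coprime_two_left.2 ho
  obtain ⟨σ, hs⟩ := exists_ringEquiv_pow n0 (Nat.coprime_of_mul_modEq_one k k3)
  have hg : ∀ (χ : IrrCharacter G) g, σ (χ.1 g) = χ.1 (g ^ k) := fun χ g =>
    χ.2.isCharacter.gal_apply (σ := σ.toRingHom) hs pow_card_eq_one'
  have hgg : ∀ (χ : IrrCharacter G) g, σ (σ (χ.1 g)) = χ.1 g := fun χ g => by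
    rw [hg, hg, ← pow_mul, pow_eq_pow_iff_modEq.2 (k3.of_dvd (orderOf_dvd_natCard g)), pow_one]
  by_cases h2 : Nat.card {χ : IrrCharacter G // ¬ 2 ∣ charDegree χ.1 ∧ ∀ g, σ (χ.1 g) = χ.1 g} = 2
  · refine Or.inr ⟨k, fun g ⟨j, hj⟩ => ?_, fun g h => ?_, by simpa only [hg] using h2⟩
    · have h5 := orderOf_dvd_natCard g
      rw [hn, hj] at h5
      rw [eq_inv_iff_mul_eq_one, ← pow_succ, ← orderOf_dvd_iff_pow_eq_one, hj]
      exact ((hc.pow_left j).dvd_of_dvd_mul_right h5).trans k1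
    · have h5 := orderOf_dvd_natCard g
      rw [hn] at h5
      have := ((Nat.coprime_two_right.2 h).pow_right a).dvd_of_dvd_mul_left h5
      rw [pow_eq_pow_iff_modEq.2 (k2.of_dvd this), pow_one]
  left
  have e1 : σ d = d := by
    have a1 := split fun χ => ∀ g, σ (χ.1 g) = χ.1 g
    have a2 := (ZMod.natCast_eq_zero_iff _ _).1 (even_moved σ hgg).1
    rw [hσ σ hgg, Even.neg_one_pow (Nat.even_iff.2 (by omega)), one_mul]
  let I := univ.filter fun χ : IrrCharacter G => ¬ 2 ∣ charDegree χ.1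
  let D : ℕ := ∏ χ ∈ I, charDegree χ.1
  let s : ℕ := ∏ χ : IrrCharacter G, charDegree χ.1 ^ (charDegree χ.1 ^ 2 / 2)
  have hD : ∏ χ : IrrCharacter G, (charDegree χ.1 : ℂ) ^ (charDegree χ.1 ^ 2) = D * s ^ 2 := by
    have : ∏ χ : IrrCharacter G, charDegree χ.1 ^ (charDegree χ.1 ^ 2) = D * s ^ 2 := by
      simp only [D, s, I]
      rw [prod_filter, ← prod_pow, ← prod_mul_distrib]
      refine prod_congr rfl fun χ _ => ?_
      rw [← pow_mul]
      by_cases h : 2 ∣ charDegree χ.1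
      · rw [if_neg (not_not.2 h), one_mul, Nat.div_mul_cancel (h.trans (dvd_pow_self _ two_ne_zero))]
      · rw [if_pos h, ← pow_succ']
        have : ¬ 2 ∣ charDegree χ.1 ^ 2 := fun h' => h (Nat.prime_two.dvd_of_dvd_pow h')
        congr 1
        omega
    exact_mod_cast this
  have Dodd : Odd D := by
    refine Nat.odd_iff.2 (Nat.two_dvd_ne_zero.1 fun h => ?_)
    obtain ⟨χ, h1, h2⟩ := (Nat.prime_two.prime.dvd_finsetProd_iff _).1 h
    exact (mem_filter.1 h1).2 h2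
  obtain ⟨m, hm⟩ : ∃ m, Nat.card G = 2 * m := ⟨Nat.card G / 2, by omega⟩
  have n0' : ((Nat.card G : ℂ) ^ m) ≠ 0 := pow_ne_zero _ (Nat.cast_ne_zero.2 n0)
  obtain ⟨ε, hε, hd⟩ : ∃ ε : ℤ, (ε = 1 ∨ ε = -1) ∧
      d ^ 2 * (D * s ^ 2) = ε * ((Nat.card G : ℂ) ^ m) ^ 2 := by
    rw [← pow_mul, mul_comm m, ← hm, ← hD]
    rcases hd with h | h
    · exact ⟨1, Or.inl rfl, by simpa using h⟩
    · exact ⟨-1, Or.inr rfl, by simpa using h⟩
  have ht : (d * D * s / (Nat.card G : ℂ) ^ m) ^ 2 = ((ε * D : ℤ) : ℂ) := by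
    push_cast
    field_simp
    linear_combination (D : ℂ) * hd
  have e2 : (ε * D) % 4 = 1 := by
    refine (Sq83.mod4 σ.toRingHom ?_ _ ?_ (fun q hq hqd z hz => ?_) _ ht).1 (by simp [e1])
    · have a2 : 2 ≤ a := by
        by_contra h
        obtain ⟨c, hc⟩ := ho
        interval_cases a <;> omega
      obtain ⟨c, hc⟩ : 4 ∣ k + 1 := (pow_dvd_pow 2 a2).trans k1
      obtain ⟨c', hc'⟩ := h8
      have := hs Complex.I (by rw [hc', show 8 * c' = 4 * (2 * c') by ring, pow_mul]; simp)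
      refine this.trans (mul_right_cancel₀ Complex.I_ne_zero ?_)
      rw [← pow_succ, hc, pow_mul]
      simp
    · rcases hε with rfl | rfl <;> simpa using Dodd
    · have h5 : q ∣ D := by rcases hε with rfl | rfl <;> simpa [Int.natCast_dvd_natCast] using hqd
      have h6 : q ∣ Nat.card G := by
        obtain ⟨χ, -, h2⟩ := (hq.prime.dvd_finsetProd_iff _).1 h5
        exact h2.trans χ.2.charDegree_dvd_card
      have h7 : q ∣ o := ((Nat.coprime_two_right.2 (Dodd.of_dvd_nat h5)).pow_right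
        a).dvd_of_dvd_mul_left (hn ▸ h6)
      refine (hs z (by obtain ⟨c, hc⟩ := h6; rw [hc, pow_mul, hz, one_pow])).trans ?_
      rw [pow_eq_pow_of_modEq (k2.of_dvd h7) hz, pow_one]
  have c0 : ∀ (χ : IrrCharacter G) g, (starRingAut : ℂ ≃+* ℂ) ((starRingAut : ℂ ≃+* ℂ) (χ.1 g)) =
      χ.1 g := fun χ g => star_star _
  have c1 := hσ starRingAut c0
  obtain ⟨c2, c3⟩ := even_moved starRingAut c0
  have c4 := split fun χ => ∀ g, (starRingAut : ℂ ≃+* ℂ) (χ.1 g) = χ.1 g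
  obtain ⟨r, hr⟩ := (ZMod.natCast_eq_zero_iff _ _).1 c2
  rw [hr] at c1 c4
  rw [Nat.mul_div_cancel_left _ two_pos] at c1
  have c5 : ε = (-1) ^ r := by
    have h5 : ((Complex.normSq (d * D * s / (Nat.card G : ℂ) ^ m) : ℝ) : ℂ) =
        (((-1) ^ r * ε * D : ℤ) : ℝ) := by
      have : conj d = (-1) ^ r * d := c1
      rw [← Complex.mul_conj]
      simp only [map_div₀, map_mul, map_pow, map_natCast, this]
      push_cast at ht ⊢
      linear_combination (-1) ^ r * ht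
    have h6 : 0 ≤ (-1) ^ r * ε * D := by
      have := Complex.normSq_nonneg (d * D * s / (Nat.card G : ℂ) ^ m)
      rw [Complex.ofReal_inj.1 h5] at this
      exact_mod_cast this
    have := Dodd.pos
    rcases neg_one_pow_eq_or ℤ r with h | h <;> rcases hε with rfl | rfl <;> rw [h] at h6 ⊢ <;> omega
  let R := univ.filter fun χ : IrrCharacter G => ¬ 2 ∣ charDegree χ.1 ∧
    ∀ g, (starRingAut : ℂ ≃+* ℂ) (χ.1 g) = χ.1 g
  have r1 : R.card + 2 * r = 4 := by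
    rw [← c4, Nat.card_eq_fintype_card, Fintype.card_subtype]
  have r2 : (D : ZMod 4) = ∏ χ ∈ R, (charDegree χ.1 : ZMod 4) := by
    simp only [D, I, R, Nat.cast_prod]
    rw [← prod_filter_mul_prod_filter_not _
      fun χ : IrrCharacter G => ∀ g, (starRingAut : ℂ ≃+* ℂ) (χ.1 g) = χ.1 g, filter_filter,
      filter_filter]
    erw [c3, mul_one]
  have r3 := (sum_odd R (fun χ => charDegree χ.1) fun χ h => (mem_filter.1 h).2.1).1
  have r4 : ∑ χ : IrrCharacter G, (if (∀ g, (χ.1 g).im = 0) ∧ ¬ 2 ∣ charDegree χ.1 then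
      (charDegree χ.1 : ℤ) else 0) = ((∑ χ ∈ R, charDegree χ.1 : ℕ) : ℤ) := by
    rw [Nat.cast_sum, sum_filter]
    exact sum_congr rfl fun χ _ => if_congr (and_comm.trans (and_congr_right' (forall_congr'
      fun g => Complex.conj_eq_iff_im.symm))) rfl rfl
  have r5 := M8.mod8 G
  rw [r4, h4] at r5
  rw [← r2, ← Nat.cast_sum] at r3
  have r6 : ((∑ χ ∈ R, charDegree χ.1 : ℕ) : ℤ) + 1 ≡ R.card + D [ZMOD 4] := by
    refine (ZMod.intCast_eq_intCast_iff _ _ 4).1 ?_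
    simp only [Int.cast_add, Int.cast_natCast, Int.cast_one]
    rw [r3]; ring
  generalize (∑ χ ∈ R, charDegree χ.1 : ℕ) = S at r5 r6
  unfold Int.ModEq at r5 r6
  have : r = 0 ∨ r = 1 ∨ r = 2 := by omega
  rcases this with rfl | rfl | rfl <;> norm_num at c5 <;> subst c5 <;> omega

end CL.OD.As2
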