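import Mathlib
import Cfsg.Agent.CHAR.PowCongr
import Cfsg.Agent.CHAR.Linear
import Cfsg.Agent.CHAR.Faithful
import Cfsg.Agent.INV.SylowAux

/-! Groups with four irreducible characters of odd degree and a cyclic Sylow `2`-subgroup. -/

set_option autoImplicit false

namespace CL.OD.Cy30

open Subgroup Cfsg CL.Char

theorem card_mod {G : Type*} [Group G] [Finite G] :
    Nat.card G % 4 = Nat.card {χ : IrrCharacter G // ¬ 2 ∣ charDegree χ.1} % 4 := by
  classical
  have h1 : ∑ χ : IrrCharacter G, charDegree χ.1 ^ 2 = Nat.card G := by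
    have := sum_degree_sq (G := G)
    rw [Finset.sum_congr rfl fun χ _ => by rw [χ.2.isCharacter.apply_one_eq_charDegree]] at this
    exact_mod_cast this
  rw [← h1, Nat.card_eq_fintype_card, Fintype.card_subtype, Finset.card_filter, Finset.sum_nat_mod,
    Finset.sum_nat_mod _ 4 fun χ : IrrCharacter G => if ¬ 2 ∣ charDegree χ.1 then 1 else 0]
  congr 1
  refine Finset.sum_congr rfl fun χ _ => ?_
  generalize charDegree χ.1 = d
  rcases Nat.even_or_odd' d with ⟨k, rfl | rfl⟩
  · rw [if_neg (by omega), show (2 * k) ^ 2 = 4 * k ^ 2 by ring]; omega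
  · rw [if_pos (by omega), show (2 * k + 1) ^ 2 = 4 * (k ^ 2 + k) + 1 by ring]; omega

theorem four_dvd {G : Type*} [Group G] [Finite G]
    (h4 : Nat.card {χ : IrrCharacter G // ¬ 2 ∣ charDegree χ.1} = 4) : 4 ∣ Nat.card G := by
  have := card_mod (G := G)
  omega

theorem cyc {G : Type*} [Group G] [Finite G] (P : Sylow 2 G) (hP : IsCyclic P)
    (h4 : Nat.card {χ : IrrCharacter G // ¬ 2 ∣ charDegree χ.1} = 4) :
    (commutator P).index = 4 := by
  have hc : ∀ a b : (P : Subgroup G), a * b = b * a := fun a b => hP.isMulCommutative.1.1 a b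
  obtain ⟨N, hN, hNP⟩ := CL.SylowAux.exists_normal_complement_of_isCyclic P hP
  let π : G →* P := hNP.symm.QuotientMulEquiv.toMonoidHom.comp (QuotientGroup.mk' N)
  have hπ : Function.Surjective π :=
    hNP.symm.QuotientMulEquiv.surjective.comp (QuotientGroup.mk'_surjective N)
  have h1 : Nat.card P ≤ 4 := by
    rw [← h4, ← card_hom_of_comm hc]
    refine Nat.card_le_card_of_injective (fun l => ⟨⟨fun g => ((l.comp π) g : ℂ),
      isIrrCharacter_hom _⟩, by simp [charDegree]⟩) fun l l' e => ?_
    refine MonoidHom.ext fun x => ?_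
    obtain ⟨g, rfl⟩ := hπ x
    exact Units.ext (congrFun (congrArg (fun c => c.1.1) e) g)
  have h2 : 4 ∣ Nat.card P := by
    have := four_dvd h4
    rw [← (P : Subgroup G).card_mul_index] at this
    exact ((Nat.coprime_two_left.2 (Nat.odd_iff.2 (by
      have := P.not_dvd_index; omega))).pow_left 2).dvd_of_dvd_mul_right this
  rw [commutator_eq_bot_of_comm hc, index_bot]
  exact le_antisymm h1 (Nat.le_of_dvd Nat.card_pos h2)

end CL.OD.Cy30
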