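import Cfsg.Agent.CHAR.Galois
import Cfsg.Prelude.Def_Blocks

namespace CL.OD
open Cfsg

/-- odd-degree irreducible characters -/
abbrev Od (G : Type*) [Group G] := {χ : IrrCharacter G // Odd (charDegree (χ : G → ℂ))}

theorem deg_gal {G : Type*} [Group G] [Finite G] (σ : ℂ ≃+* ℂ) (χ : IrrCharacter G) :
    charDegree ((CL.Char.galIrr G σ χ : IrrCharacter G) : G → ℂ) = charDegree (χ : G → ℂ) := by
  unfold charDegree
  rw [CL.Char.galIrr_apply]
  obtain ⟨n, ρ, -, h⟩ := χ.2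
  have := Cfsg.IsCharacter.gal_one (G := G) (χ := χ.1) ⟨n, ρ, h⟩ (σ : ℂ →+* ℂ)
  simp only [RingHom.coe_coe] at this
  rw [this]

/-- Galois action on the odd-degree irreducible characters -/
noncomputable def oddP (G : Type*) [Group G] [Finite G] (σ : ℂ ≃+* ℂ) : Equiv.Perm (Od G) :=
  (CL.Char.galIrr G σ).subtypePerm (fun χ => by rw [deg_gal])

theorem oddP_apply {G : Type*} [Group G] [Finite G] (σ : ℂ ≃+* ℂ) (χ : Od G) (g : G) :
    ((oddP G σ χ).1 : G → ℂ) g = σ ((χ.1 : G → ℂ) g) := CL.Char.galIrr_apply σ χ.1 g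

end CL.OD
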