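import Cfsg.Agent.CHAR.Galois
import Cfsg.Agent.CHAR.RepEquiv
import Cfsg.Agent.CHAR.Values

set_option autoImplicit false
open Cfsg CL.Char Matrix Finset
open scoped Kronecker

namespace CL.OD.GD94

theorem det_bd {R : Type*} [CommRing R] {ι : Type*} [Fintype ι] [DecidableEq ι]
    {m : ι → Type*} [∀ i, Fintype (m i)] [∀ i, DecidableEq (m i)]
    (M : ∀ i, Matrix (m i) (m i) R) :
    (Matrix.blockDiagonal' M).det = ∏ i, (M i).det := by
  let _ : LinearOrder ι := LinearOrder.lift' (Fintype.equivFin ι) (Fintype.equivFin ι).injective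
  have h := Matrix.BlockTriangular.det_fintype (Matrix.blockTriangular_blockDiagonal' M)
  rw [h]
  refine Finset.prod_congr rfl fun i _ => ?_
  let e : m i ≃ {a : (Σ j, m j) // a.1 = i} :=
    { toFun := fun x => ⟨⟨i, x⟩, rfl⟩
      invFun := fun a => a.2 ▸ a.1.2
      left_inv := fun _ => rfl
      right_inv := by rintro ⟨⟨j, x⟩, rfl⟩; rfl }
  rw [← Matrix.det_submatrix_equiv_self e]
  congr 1
  ext a b
  simp [e, Matrix.toSquareBlock_def]

theorem mul_bd {R : Type*} [CommRing R] {ι κ : Type*} [Fintype ι] [DecidableEq ι]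
    {m : ι → Type*} [∀ i, Fintype (m i)]
    (A : Matrix κ (Σ i, m i) R) (M : ∀ i, Matrix (m i) (m i) R) (k : κ) (i : ι) (a : m i) :
    (A * Matrix.blockDiagonal' M) k ⟨i, a⟩ = ∑ c, A k ⟨i, c⟩ * M i c a := by
  rw [Matrix.mul_apply, Fintype.sum_sigma, Finset.sum_eq_single i]
  · simp
  · intro j _ hj
    simp [Matrix.blockDiagonal'_apply_ne _ _ _ hj]
  · simp

variable {G : Type*} [Group G] [Finite G]

theorem simil {n m : ℕ} (h : n = m) (ρ : Representation ℂ G (Fin n → ℂ))
    (ρ' : Representation ℂ G (Fin m → ℂ)) (hc : ρ'.character = ρ.character) :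
    ∃ X Y : Matrix (Fin n) (Fin n) ℂ, X * Y = 1 ∧ ∀ g, LinearMap.toMatrix' (ρ g)
      = X * (LinearMap.toMatrix' (ρ' g)).submatrix (Fin.cast h) (Fin.cast h) * Y := by
  subst h
  obtain ⟨φ⟩ := nonempty_equiv_of_character_eq ρ' ρ hc
  refine ⟨LinearMap.toMatrix' φ.toLinearEquiv.toLinearMap,
    LinearMap.toMatrix' φ.toLinearEquiv.symm.toLinearMap, ?_, fun g => ?_⟩
  · rw [← LinearMap.toMatrix'_comp, LinearEquiv.comp_symm, LinearMap.toMatrix'_id]
  · have : (LinearMap.toMatrix' (ρ' g)).submatrix (Fin.cast rfl) (Fin.cast rfl)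
        = LinearMap.toMatrix' (ρ' g) := rfl
    rw [this, ← LinearMap.toMatrix'_comp, ← LinearMap.toMatrix'_comp]
    congr 1
    refine LinearMap.ext fun v => ?_
    have := LinearMap.congr_fun (φ.isIntertwining' g) (φ.toLinearEquiv.symm v)
    have h2 : φ.toLinearMap (φ.toLinearEquiv.symm v) = v := φ.toLinearEquiv.apply_symm_apply v
    rw [LinearMap.comp_apply, LinearMap.comp_apply, h2] at this
    exact this.symm

omit [Finite G] in
theorem exists_rep (χ : IrrCharacter G) :
    ∃ ρ : Representation ℂ G (Fin (charDegree χ.1) → ℂ), ρ.character = χ.1 := by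
  obtain ⟨χ, n, ρ, hi, rfl⟩ := χ
  have : charDegree ρ.character = n := charDegree_eq_of_apply_one (character_one_fin ρ)
  simp only
  rw [this]
  exact ⟨ρ, rfl⟩

theorem sig_ext {ι : Type*} {n : ι → ℕ} {x y : Σ i, Fin (n i) × Fin (n i)} (h : x.1 = y.1)
    (h1 : x.2.1.val = y.2.1.val) (h2 : x.2.2.val = y.2.2.val) : x = y := by
  obtain ⟨i, a, b⟩ := x
  obtain ⟨j, c, d⟩ := y
  simp only at h h1 h2
  subst h
  rw [Fin.ext h1, Fin.ext h2]

theorem sq_mod (n : ℕ) : n ^ 2 % 4 = (if ¬ 2 ∣ n then 1 else 0) % 4 := by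
  have : n % 4 = 0 ∨ n % 4 = 1 ∨ n % 4 = 2 ∨ n % 4 = 3 := by omega
  rcases this with h | h | h | h <;> rw [Nat.pow_mod, h] <;> split_ifs <;> omega

theorem ex (G : Type*) [Group G] [Finite G] : ∃ d : ℂ,
    (d ^ 2 * ∏ χ : IrrCharacter G, (charDegree χ.1 : ℂ) ^ (charDegree χ.1 ^ 2)
        = (Nat.card G : ℂ) ^ Nat.card G ∨
      d ^ 2 * ∏ χ : IrrCharacter G, (charDegree χ.1 : ℂ) ^ (charDegree χ.1 ^ 2)
        = -(Nat.card G : ℂ) ^ Nat.card G) ∧
    ∀ σ : ℂ →+* ℂ, (∀ (χ : IrrCharacter G) g, σ (σ (χ.1 g)) = χ.1 g) →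
      σ d = (-1) ^ (Nat.card {χ : IrrCharacter G //
        ¬ 2 ∣ charDegree χ.1 ∧ ¬ ∀ g, σ (χ.1 g) = χ.1 g} / 2) * d := by
  classical
  have := Fintype.ofFinite G
  choose ρ hρ using fun χ : IrrCharacter G => exists_rep χ
  set n : IrrCharacter G → ℕ := fun χ => charDegree χ.1 with hn
  have n1 : ∀ χ : IrrCharacter G, χ.1 1 = (n χ : ℂ) := fun χ => by
    rw [← congrFun (hρ χ) 1, character_one_fin]
  let J := Σ χ : IrrCharacter G, Fin (n χ) × Fin (n χ)
  have cJ : Fintype.card J = ∑ χ, n χ ^ 2 := by simp [J, sq]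
  have cG : Fintype.card J = Nat.card G := by
    have h := sum_degree_sq (G := G)
    simp only [n1] at h
    rw [cJ]; exact_mod_cast h
  obtain ⟨e⟩ : Nonempty (J ≃ G) := Fintype.card_eq.1 (cG.trans Nat.card_eq_fintype_card)
  let D : Matrix J J ℂ := Matrix.of fun j j' => LinearMap.toMatrix' (ρ j'.1 (e j)) j'.2.1 j'.2.2
  have tr : ∀ (χ : IrrCharacter G) g, (LinearMap.toMatrix' (ρ χ g)).trace = χ.1 g := fun χ g => by
    rw [← congrFun (hρ χ) g]
    unfold Representation.character
    rw [LinearMap.trace_eq_matrix_trace ℂ (Pi.basisFun ℂ (Fin _)), LinearMap.toMatrix_eq_toMatrix']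
  refine ⟨D.det, ?_, fun σ hσ => ?_⟩
  · let fl : Equiv.Perm J := Equiv.sigmaCongrRight fun χ => Equiv.prodComm _ _
    let iv : Equiv.Perm J := e.trans ((Equiv.inv G).trans e.symm)
    have gram : D * (D.submatrix id fl * diagonal fun j : J => (n j.1 : ℂ))ᵀ
        = (Nat.card G : ℂ) • (1 : Matrix J J ℂ).submatrix id iv := by
      ext j j'
      have h := sum_degree_mul (e j * e j')
      have hiff : (j = iv j') ↔ e j * e j' = 1 := by
        rw [mul_eq_one_iff_eq_inv]
        simp only [iv, Equiv.trans_apply, Equiv.inv_apply, Equiv.eq_symm_apply]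
      rw [Matrix.smul_apply, submatrix_apply, one_apply, id, smul_eq_mul, mul_ite, mul_one, mul_zero,
        if_congr hiff rfl rfl, ← h, Matrix.mul_apply, Fintype.sum_sigma]
      refine sum_congr rfl fun χ _ => ?_
      rw [← tr χ (e j * e j'), map_mul, LinearMap.toMatrix'_mul, n1, Matrix.trace, mul_sum,
        Fintype.sum_prod_type]
      refine sum_congr rfl fun a _ => ?_
      rw [diag_apply, Matrix.mul_apply, mul_sum]
      refine sum_congr rfl fun b _ => ?_
      rw [transpose_apply, mul_diagonal, submatrix_apply]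
      change LinearMap.toMatrix' (ρ χ (e j)) a b * (LinearMap.toMatrix' (ρ χ (e j')) b a * (n χ : ℂ))
        = _
      ring
    have hd := congrArg det gram
    rw [det_mul, det_transpose, det_mul, det_permute', det_diagonal, det_smul, det_permute',
      det_one, cG, Fintype.prod_sigma] at hd
    simp only [prod_const, card_univ, Fintype.card_prod, Fintype.card_fin, ← sq] at hd
    rcases Int.units_eq_one_or (Equiv.Perm.sign fl) with h1 | h1 <;>
      rcases Int.units_eq_one_or (Equiv.Perm.sign iv) with h2 | h2 <;>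
      rw [h1, h2] at hd <;> push_cast at hd
    · left; linear_combination hd
    · right; linear_combination hd
    · right; linear_combination -hd
    · left; linear_combination -hd
  · let π : IrrCharacter G → IrrCharacter G := fun χ => ⟨fun g => σ (χ.1 g), χ.2.gal σ⟩
    have ππ : ∀ χ, π (π χ) = χ := fun χ => Subtype.ext (funext fun g => hσ χ g)
    have nπ : ∀ χ, n χ = n (π χ) := fun χ => (χ.2.isCharacter.charDegree_gal σ).symm
    let f : J → J := fun j => ⟨π j.1, Fin.cast (nπ _) j.2.1, Fin.cast (nπ _) j.2.2⟩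
    have ff : Function.Involutive f := fun j => sig_ext (ππ _) rfl rfl
    let F : Equiv.Perm J := ff.toPerm
    have hs := fun χ : IrrCharacter G => simil (nπ χ) (galRep σ (ρ χ)) (ρ (π χ))
      (by rw [hρ]; funext g; rw [galRep_character, hρ])
    choose X Y hXY hX using hs
    have key : D.map σ = D.submatrix id F * blockDiagonal' fun χ => (X χ)ᵀ ⊗ₖ Y χ := by
      ext j ⟨χ, a, b⟩
      rw [mul_bd, Fintype.sum_prod_type]
      have := congrFun (congrFun (hX χ (e j)) a) b
      rw [toMatrix'_galRep, map_apply, Matrix.mul_apply] at this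
      simp only [Matrix.mul_apply, sum_mul] at this
      rw [sum_comm] at this
      refine (show D.map σ j ⟨χ, a, b⟩ = _ from this).trans ?_
      refine sum_congr rfl fun c _ => sum_congr rfl fun d _ => ?_
      have : D.submatrix id F j ⟨χ, c, d⟩ = (LinearMap.toMatrix' (ρ (π χ) (e j))).submatrix
        (Fin.cast (nπ χ)) (Fin.cast (nπ χ)) c d := rfl
      rw [this, kroneckerMap_apply, transpose_apply]
      ring
    have h1 : ∀ χ, ((X χ)ᵀ ⊗ₖ Y χ).det = 1 := fun χ => by
      rw [det_kronecker, det_transpose, ← mul_pow, ← det_mul, hXY, det_one, one_pow]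
    have hd : σ D.det = (Equiv.Perm.sign F : ℤ) * D.det := by
      rw [RingHom.map_det, RingHom.mapMatrix_apply, key, det_mul, det_permute', det_bd]
      simp [h1]
    have F2 : F ^ 2 = 1 := by
      ext j : 1
      exact ff j
    have cF : Fintype.card J - Fintype.card (Function.fixedPoints F)
        = ∑ χ ∈ univ.filter (fun χ => ¬ π χ = χ), n χ ^ 2 := by
      have : Fintype.card (Function.fixedPoints F)
          = ∑ χ ∈ univ.filter (fun χ => π χ = χ), n χ ^ 2 := by
        rw [Fintype.card_subtype, card_filter, Fintype.sum_sigma, sum_filter]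
        refine sum_congr rfl fun χ _ => ?_
        have : ∀ ab : Fin (n χ) × Fin (n χ),
            ((⟨χ, ab⟩ : J) ∈ Function.fixedPoints F) ↔ π χ = χ := fun ab =>
          ⟨fun h => congrArg Sigma.fst h, fun h => sig_ext h rfl rfl⟩
        simp only [this]
        split_ifs <;> simp [sq]
      rw [this, cJ, ← sum_filter_add_sum_filter_not univ (fun χ => π χ = χ)]
      simp
    have cm : Nat.card {χ : IrrCharacter G //
        ¬ 2 ∣ charDegree χ.1 ∧ ¬ ∀ g, σ (χ.1 g) = χ.1 g}
        = ∑ χ ∈ univ.filter (fun χ => ¬ π χ = χ), if ¬ 2 ∣ n χ then 1 else 0 := by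
      rw [Nat.card_eq_fintype_card, Fintype.card_subtype, ← card_filter, filter_filter]
      congr 1
      refine filter_congr fun χ _ => ?_
      have : π χ = χ ↔ ∀ g, σ (χ.1 g) = χ.1 g := by
        rw [Subtype.ext_iff, funext_iff]
      rw [this, and_comm]
    have m4 : (∑ χ ∈ univ.filter (fun χ => ¬ π χ = χ), n χ ^ 2) % 4
        = (∑ χ ∈ univ.filter (fun χ => ¬ π χ = χ), if ¬ 2 ∣ n χ then 1 else 0) % 4 := by
      rw [sum_nat_mod, sum_congr rfl fun χ _ => sq_mod (n χ), ← sum_nat_mod]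
    rw [hd, Equiv.Perm.sign_of_pow_two_eq_one F2, cF, cm]
    congr 1
    push_cast
    rw [neg_one_pow_eq_pow_mod_two, neg_one_pow_eq_pow_mod_two (R := ℂ) (_ / 2)]
    congr 1
    omega

end CL.OD.GD94
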