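import Cfsg.Agent.CHAR.FS

/-! The number of irreducible characters of odd degree modulo `8`. -/

set_option autoImplicit false

namespace CL.OD.M8

open Cfsg CL.Char
open scoped Classical ComplexConjugate

theorem mod8 (G : Type*) [Group G] [Fintype G] :
    (Nat.card {χ : IrrCharacter G // ¬ 2 ∣ charDegree χ.1} : ℤ) ≡
      Nat.card G - 2 * Nat.card {s : G // s * s = 1} +
        2 * ∑ χ : IrrCharacter G, (if (∀ g, (χ.1 g).im = 0) ∧ ¬ 2 ∣ charDegree χ.1 then
          (charDegree χ.1 : ℤ) else 0) [ZMOD 8] := by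
  have h1 : ∑ χ : IrrCharacter G, (charDegree (χ : G → ℂ) : ℤ) ^ 2 = Nat.card G := by
    have := sum_degree_sq (G := G)
    simp only [fun χ : IrrCharacter G => χ.2.apply_one_eq_charDegree] at this
    exact_mod_cast this
  have hν : ∀ χ : IrrCharacter G, ∃ ν : ℤ, fsInd χ.1 = ν := fun χ => by
    rcases χ.2.fsInd_trichotomy with h | h | h
    exacts [⟨0, by simpa using h⟩, ⟨1, by simpa using h⟩, ⟨-1, by simpa using h⟩]
  choose ν hν using hν
  have h2 : ∑ χ : IrrCharacter G, ν χ * (charDegree (χ : G → ℂ) : ℤ) =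
      Nat.card {s : G // s * s = 1} := by
    have := card_sqrt_eq_sum (1 : G)
    simp only [fun χ : IrrCharacter G => χ.2.apply_one_eq_charDegree, hν] at this
    exact_mod_cast this.symm
  have h3 : (Nat.card {χ : IrrCharacter G // ¬ 2 ∣ charDegree χ.1} : ℤ) =
      ∑ χ : IrrCharacter G, if ¬ 2 ∣ charDegree χ.1 then (1 : ℤ) else 0 := by
    rw [Nat.card_eq_fintype_card, Fintype.card_subtype, Finset.sum_boole]
  let t : IrrCharacter G → ℤ := fun χ => (charDegree χ.1 : ℤ) ^ 2 - 2 * (ν χ * charDegree χ.1) +
    2 * (if (∀ g, (χ.1 g).im = 0) ∧ ¬ 2 ∣ charDegree χ.1 then (charDegree χ.1 : ℤ) else 0) -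
    (if ¬ 2 ∣ charDegree χ.1 then (1 : ℤ) else 0)
  have hreal : ∀ χ : IrrCharacter G, (∀ g, (χ.1 g).im = 0) → ((t χ : ℤ) : ZMod 8) = 0 := by
    intro χ hr
    rcases Nat.even_or_odd' (charDegree χ.1) with ⟨k, hk | hk⟩
    · have hd : 2 ∣ charDegree χ.1 := ⟨k, hk⟩
      have hn : ν χ = 1 ∨ ν χ = -1 := by
        rcases χ.2.fsInd_of_real hr with h | h <;> rw [hν] at h
        · left; exact_mod_cast h
        · right; exact_mod_cast h
      simp only [t, hd, not_true_eq_false, and_false, if_false]
      rw [hk]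
      rcases hn with h | h <;> rw [h] <;> push_cast <;> generalize (k : ZMod 8) = x <;>
        revert x <;> decide
    · have hd : ¬ 2 ∣ charDegree χ.1 := by omega
      have hn : ν χ = 1 := by
        have := χ.2.fsInd_eq_one_of_odd hr χ.2.apply_one_eq_charDegree ⟨k, hk⟩
        rw [hν] at this
        exact_mod_cast this
      simp only [t, hd, not_false_eq_true, and_true, if_true, if_pos hr]
      rw [hk, hn]
      push_cast
      generalize (k : ZMod 8) = x
      revert x
      decide
  have hnon : ∀ χ : IrrCharacter G, ¬ (∀ g, (χ.1 g).im = 0) →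
      t χ = (charDegree χ.1 : ℤ) ^ 2 - (if ¬ 2 ∣ charDegree χ.1 then (1 : ℤ) else 0) := by
    intro χ hr
    have hn : ν χ = 0 := by
      have := χ.2.fsInd_eq_zero_of_not_real (not_forall.1 hr)
      rw [hν] at this
      exact_mod_cast this
    simp only [t, hr, false_and, if_false, hn]
    ring
  have h4 : ∑ χ : IrrCharacter G, ((t χ : ℤ) : ZMod 8) = 0 := by
    refine Finset.sum_involution (fun χ _ => irrConj G χ) (fun χ _ => ?_) (fun χ _ h e => ?_)
      (fun _ _ => Finset.mem_univ _) (fun χ _ => (irrConj G).left_inv χ)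
    · have e : charDegree (irrConj G χ : G → ℂ) = charDegree (χ : G → ℂ) := by
        apply charDegree_eq_of_apply_one
        rw [irrConj_apply, χ.2.isCharacter.conj_one, χ.2.apply_one_eq_charDegree]
      by_cases hr : ∀ g, (χ.1 g).im = 0
      · rw [hreal χ hr, hreal _ (fun g => by rw [irrConj_apply, Complex.conj_im, hr g, neg_zero]),
          add_zero]
      · rw [hnon χ hr, hnon _ (fun h => hr fun g => by
          have := h g
          rwa [irrConj_apply, Complex.conj_im, neg_eq_zero] at this), e]
        rcases Nat.even_or_odd' (charDegree χ.1) with ⟨k, hk | hk⟩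
        · rw [if_neg (not_not.2 ⟨k, hk⟩), hk]
          push_cast
          generalize (k : ZMod 8) = x
          revert x
          decide
        · rw [if_pos (by omega), hk]
          push_cast
          generalize (k : ZMod 8) = x
          revert x
          decide
    · refine h (hreal χ fun g => ?_)
      have := congrFun (congrArg Subtype.val e) g
      rw [irrConj_apply] at this
      exact Complex.conj_eq_iff_im.1 this
  rw [← Int.cast_sum, ZMod.intCast_zmod_eq_zero_iff_dvd] at h4
  rw [Int.modEq_iff_dvd, h3, ← h1, ← h2]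
  simpa only [t, Finset.sum_sub_distrib, Finset.sum_add_distrib, ← Finset.mul_sum,
    Nat.cast_ofNat] using h4

end CL.OD.M8
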