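import Mathlib

/-! Square roots of odd integers under a ring endomorphism fixing odd roots of unity. -/

set_option autoImplicit false

namespace CL.OD.Sq

theorem prime_rt (σ : ℂ →+* ℂ) (p : ℕ) (hp : p.Prime) (h2 : p ≠ 2)
    (hσ : ∀ z : ℂ, z ^ p = 1 → σ z = z) :
    ∃ (e : ℂ) (s : ℤ), (s = 1 ∨ s = -1) ∧ (s * p) % 4 = 1 ∧ σ e = e ∧ e ^ 2 = s * p := by
  haveI : Fact p.Prime := ⟨hp⟩
  have hch : ringChar (ZMod p) ≠ 2 := by rwa [ZMod.ringChar_zmod_n]
  let χ : MulChar (ZMod p) ℂ := (quadraticChar (ZMod p)).ringHomComp (Int.castRingHom ℂ)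
  let ψ : AddChar (ZMod p) ℂ := ZMod.stdAddChar (N := p)
  have hψ : ψ.IsPrimitive := ZMod.isPrimitive_stdAddChar p
  have hχ1 : χ ≠ 1 := (MulChar.ringHomComp_ne_one_iff (RingHom.injective_int _)).2
    (quadraticChar_ne_one hch)
  have hχq : χ.IsQuadratic := (quadraticChar_isQuadratic (ZMod p)).comp _
  have hg := gaussSum_sq hχ1 hχq hψ
  refine ⟨gaussSum χ ψ, quadraticChar (ZMod p) (-1), ?_, ?_, ?_, ?_⟩
  · exact quadraticChar_dichotomy (neg_ne_zero.2 one_ne_zero)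
  · rw [quadraticChar_neg_one hch, ZMod.card]
    have ho : p % 2 = 1 := hp.eq_two_or_odd.resolve_left h2
    rcases Nat.odd_mod_four_iff.1 ho with h | h
    · rw [ZMod.χ₄_nat_one_mod_four h]; omega
    · rw [ZMod.χ₄_nat_three_mod_four h]; omega
  · rw [gaussSum, map_sum]
    refine Finset.sum_congr rfl fun a _ => ?_
    rw [map_mul, hσ (ψ a) (by rw [← AddChar.map_nsmul_eq_pow, nsmul_eq_mul, ZMod.natCast_self,
      zero_mul, AddChar.map_zero_eq_one])]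
    simp [χ]
  · rw [hg, ZMod.card]; simp [χ]

theorem odd_rt (σ : ℂ →+* ℂ) (D : ℕ) (hD : Odd D)
    (hσ : ∀ (n : ℕ) (z : ℂ), n ∣ D → 0 < n → z ^ n = 1 → σ z = z) :
    ∃ (e : ℂ) (s : ℤ), (s = 1 ∨ s = -1) ∧ (s * D) % 4 = 1 ∧ σ e = e ∧ e ^ 2 = s * D := by
  induction D using Nat.recOnMul with
  | zero => exact absurd hD (by decide)
  | one => exact ⟨1, 1, Or.inl rfl, by norm_num, map_one σ, by norm_num⟩
  | prime p hp =>
    exact prime_rt σ p hp (by rintro rfl; exact absurd hD (by decide))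
      fun z hz => hσ p z dvd_rfl hp.pos hz
  | mul a b iha ihb =>
    obtain ⟨ha, hb⟩ := Nat.odd_mul.1 hD
    obtain ⟨e, s, hs, hs4, he, he2⟩ := iha ha fun n z hn => hσ n z (hn.mul_right b)
    obtain ⟨f, t, ht, ht4, hf, hf2⟩ := ihb hb fun n z hn => hσ n z (hn.mul_left a)
    refine ⟨e * f, s * t, ?_, ?_, by rw [map_mul, he, hf], ?_⟩
    · rcases hs with rfl | rfl <;> rcases ht with rfl | rfl <;> simp
    · have : s * t * ((a * b : ℕ) : ℤ) = (s * a) * (t * b) := by push_cast; ring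
      rw [this, Int.mul_emod, hs4, ht4]; rfl
    · rw [mul_pow, he2, hf2]; push_cast; ring

theorem mod4 (σ : ℂ →+* ℂ) (D : ℕ) (hD : Odd D)
    (hσ : ∀ (n : ℕ) (z : ℂ), n ∣ D → 0 < n → z ^ n = 1 → σ z = z)
    (hI : σ Complex.I = -Complex.I) (ε : ℤ) (hε : ε = 1 ∨ ε = -1) (q : ℚ) (hq : q ≠ 0) (d : ℂ)
    (hd : d ^ 2 = ε * D * (q : ℂ) ^ 2) :
    (σ d = d ↔ (ε * D) % 4 = 1) ∧ (σ d = -d ↔ (ε * D) % 4 = 3) := by
  obtain ⟨e, s, hs, hs4, he, he2⟩ := odd_rt σ D hD hσ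
  have hD0 : (D : ℂ) ≠ 0 := Nat.cast_ne_zero.2 hD.pos.ne'
  have hε0 : (ε : ℂ) ≠ 0 := by rcases hε with rfl | rfl <;> simp
  have hd0 : d ≠ 0 := by
    rintro rfl
    exact mul_ne_zero (mul_ne_zero hε0 hD0) (pow_ne_zero 2 (Rat.cast_ne_zero.2 hq))
      (hd.symm.trans (by simp))
  have hne : d ≠ -d := fun h => hd0 (by linear_combination h / 2)
  have hqe : σ (q * e) = q * e := by rw [map_mul, map_ratCast, he]
  by_cases h : ε = s
  · subst h
    have h1 : σ d = d := by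
      have : d ^ 2 = (q * e) ^ 2 := by rw [hd, mul_pow, he2]; ring
      rcases sq_eq_sq_iff_eq_or_eq_neg.1 this with h | h
      · rw [h, hqe]
      · rw [h, map_neg, hqe]
    refine ⟨⟨fun _ => hs4, fun _ => h1⟩, ⟨fun h => absurd (h1.symm.trans h) hne, fun h => ?_⟩⟩
    omega
  · have hes : ε = -s := by rcases hε with rfl | rfl <;> rcases hs with rfl | rfl <;> simp_all
    subst hes
    have h3 : (-s * D) % 4 = 3 := by rw [neg_mul]; omega
    have h1 : σ d = -d := by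
      have : d ^ 2 = (Complex.I * (q * e)) ^ 2 := by
        rw [hd, mul_pow, mul_pow, he2, Complex.I_sq]; push_cast; ring
      rcases sq_eq_sq_iff_eq_or_eq_neg.1 this with h | h
      · rw [h, map_mul, hqe, hI, neg_mul]
      · rw [h, map_neg, map_mul, hqe, hI, neg_mul]
    refine ⟨⟨fun h => absurd (h.symm.trans h1) hne, fun h => ?_⟩, ⟨fun _ => h3, fun _ => h1⟩⟩
    omega

end CL.OD.Sq
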