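import Cfsg.Agent.BLK.OD.Defs

/-! The transposition case in terms of `Od G`, from the form with `¬ 2 ∣ charDegree`. -/

set_option autoImplicit false

namespace CL.OD.Tr33
open Cfsg

theorem of {G : Type*} [Group G] [Finite G] (P : Sylow 2 G) (h4 : Nat.card (Od G) = 4) (k : ℕ)
    (hk₂ : ∀ g : G, Odd (orderOf g) → g ^ k = g)
    (h2 : Nat.card {χ : Od G // ∀ g : G, (χ.1 : G → ℂ) (g ^ k) = (χ.1 : G → ℂ) g} = 2)
    (H : Even (Nat.card G) → Nat.card {χ : IrrCharacter G // ¬ 2 ∣ charDegree χ.1} = 4 →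
      Nat.card {χ : IrrCharacter G // ¬ 2 ∣ charDegree χ.1 ∧ ∀ g, χ.1 (g ^ k) = χ.1 g} = 2 → IsCyclic P) :
    IsCyclic P := by
  have e : ∀ n : ℕ, Odd n ↔ ¬ 2 ∣ n := fun n => by rw [← even_iff_two_dvd, Nat.not_even_iff_odd]
  refine H ?_ ?_ ?_
  · by_contra ho
    rw [Nat.not_even_iff_odd] at ho
    have : ∀ χ : Od G, ∀ g : G, (χ.1 : G → ℂ) (g ^ k) = (χ.1 : G → ℂ) g := fun χ g => by
      rw [hk₂ g (ho.of_dvd_nat (orderOf_dvd_natCard g))]
    rw [Nat.card_congr (Equiv.subtypeUnivEquiv this), h4] at h2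
    omega
  · exact Eq.trans (Nat.card_congr (Equiv.subtypeEquivRight fun χ => (e _).symm)) h4
  · refine Eq.trans (Nat.card_congr ((Equiv.subtypeEquivRight fun χ => and_congr_left' (e _).symm).trans
      (Equiv.subtypeSubtypeEquivSubtypeInter (fun χ : IrrCharacter G => Odd (charDegree χ.1))
        (fun χ => ∀ g, χ.1 (g ^ k) = χ.1 g)).symm)) h2

end CL.OD.Tr33
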